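import Mathlib

/-!
# A lemma on `3`-transpositions
-/

set_option autoImplicit false

namespace Cfsg.Agent.O3R

section
variable {K : Type*} [Group K] {a x y : K}

theorem star_braid (ha : a * a = 1) (hx : x * x = 1) (h : (a * x) ^ 3 = 1) : a * x * a = x * a * x := by
  have : a * x * a * (x * a * x) = 1 := by rw [← h, pow_three]; group
  rw [eq_inv_of_mul_eq_one_left this, mul_inv_rev, mul_inv_rev, inv_eq_of_mul_eq_one_right ha,
    inv_eq_of_mul_eq_one_right hx, mul_assoc]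

theorem star_A3 (ha : a * a = 1) (hx : x * x = 1) (hy : y * y = 1) (c : x * y = y * x)
    (h1 : (a * x) ^ 3 = 1) (h2 : (a * y) ^ 3 = 1) : Commute (x * y) (a * (x * y) * a) := by
  have e1 := star_braid ha hx h1
  have e2 := star_braid ha hy h2
  calc x * y * (a * (x * y) * a) = y * (x * a * x) * y * a := by nth_rw 1 [c]; group
    _ = y * a * x * (a * y * a) := by rw [← e1]; group
    _ = y * a * (x * y) * a * y := by rw [e2]; group
    _ = (y * a * y) * x * a * y := by rw [c]; group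
    _ = a * y * (a * x * a) * y := by rw [← e2]; group
    _ = a * (y * x) * a * (x * y) := by rw [e1]; group
    _ = _ := by rw [← c]

end

theorem star {K : Type*} [Group K] {a q α b₀ b₁ b₂ b₃ : K} (ha : a * a = 1) (hq : q * q = 1)
    (h0 : b₀ * b₀ = 1) (h1 : b₁ * b₁ = 1) (c01 : b₀ * b₁ = b₁ * b₀) (c02 : b₀ * b₂ = b₂ * b₀)
    (c03 : b₀ * b₃ = b₃ * b₀) (c12 : b₁ * b₂ = b₂ * b₁) (c13 : b₁ * b₃ = b₃ * b₁)
    (c23 : b₂ * b₃ = b₃ * b₂) (hp : b₀ * b₁ * b₂ * b₃ = q) (e0 : α * a * α⁻¹ = a)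
    (e1 : α * b₁ * α⁻¹ = b₂) (e2 : α * b₂ * α⁻¹ = b₃) (aq : (a * q) ^ 3 = 1) (ne : b₀ ≠ q)
    (t0 : (a * b₀) ^ 2 = 1 ∨ (a * b₀) ^ 3 = 1) (t1 : (a * b₁) ^ 2 = 1 ∨ (a * b₁) ^ 3 = 1) :
    a * b₀ = b₀ * a := by
  have ai := inv_eq_of_mul_eq_one_right ha
  have cm : ∀ {x : K}, x * x = 1 → (a * x) ^ 2 = 1 → Commute a x := fun hx h => by
    rw [sq] at h
    rw [Commute, SemiconjBy, eq_inv_of_mul_eq_one_left h, mul_inv_rev, ai, inv_eq_of_mul_eq_one_right hx]
  refine t0.elim (cm h0) fun t0 => absurd ?_ ne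
  have tr : ∀ {x y : K} {n : ℕ}, α * x * α⁻¹ = y → (a * x) ^ n = 1 → (a * y) ^ n = 1 := fun e h => by
    rw [← e, ← e0, conj_mul, conj_pow, h, mul_one, mul_inv_cancel]
  have h2 : b₂ * b₂ = 1 := by rw [← e1, conj_mul, h1, mul_one, mul_inv_cancel]
  have h3 : b₃ * b₃ = 1 := by rw [← e2, conj_mul, h2, mul_one, mul_inv_cancel]
  have hv : b₀ * q = b₁ * (b₂ * b₃) := by
    rw [← hp, ← mul_assoc, ← mul_assoc, ← mul_assoc, h0, one_mul, mul_assoc]
  have cq : b₀ * q = q * b₀ :=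
    hp ▸ ((((Commute.refl b₀).mul_right c01).mul_right c02).mul_right c03).eq
  have vv : b₀ * q * (b₀ * q) = 1 := by
    rw [mul_assoc, ← mul_assoc q, ← cq, mul_assoc, hq, mul_one, h0]
  have key : Commute a (b₀ * q) := by
    rcases t1 with t1 | t1
    · exact hv ▸ (cm h1 t1).mul_right ((cm h2 (tr e1 t1)).mul_right (cm h3 (tr e2 (tr e1 t1))))
    refine cm vv ?_
    have w := star_A3 ha h0 hq cq t0 aq
    have w4 : (a * (b₀ * q)) ^ 4 = 1 := by
      calc (a * (b₀ * q)) ^ 4 = (a * (b₀ * q) * a * (b₀ * q)) ^ 2 := by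
            rw [show 4 = 2 * 2 from rfl, pow_mul, sq (a * _), ← mul_assoc]
        _ = 1 := by
            rw [w.symm.mul_pow, sq, sq, vv, mul_one, mul_assoc, ← mul_assoc a (a * _), ← mul_assoc a a, ha,
              one_mul, mul_assoc, ← mul_assoc (b₀ * q), vv, one_mul, ha]
    have w' := star_A3 ha h2 h3 c23 (tr e1 t1) (tr e2 (tr e1 t1))
    have cn : Commute b₁ (b₂ * b₃) := Commute.mul_right c12 c13
    have nn : (b₂ * b₃) ^ 2 = 1 := by rw [Commute.mul_pow c23, sq, sq, h2, h3, mul_one]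
    rw [hv] at w4 ⊢
    generalize b₂ * b₃ = n at *
    have e : a * b₁ * n * (a * b₁)⁻¹ = a * n * a := by
      rw [mul_inv_rev, ai, mul_assoc a, cn.eq]; group
    rw [← e] at w'
    rw [← mul_assoc] at w4 ⊢
    generalize a * b₁ = r at *
    have c2 : Commute (r * n * r⁻¹) (r * (r * n * r⁻¹) * r⁻¹) := w'.conj r
    have c3 : Commute (r * (r * n * r⁻¹) * r⁻¹) n := by
      have := c2.conj r
      rwa [show r * (r * (r * n * r⁻¹) * r⁻¹) * r⁻¹ = r ^ 3 * n * (r ^ 3)⁻¹ by rw [pow_three]; group, t1,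
        one_mul, inv_one, mul_one] at this
    have w6 : (r * n) ^ 6 = 1 := by
      rw [show 6 = 3 * 2 from rfl, pow_mul, show (r * n) ^ 3 =
        r * n * r⁻¹ * (r * (r * n * r⁻¹) * r⁻¹) * r ^ 3 * n by rw [pow_three, pow_three]; group, t1,
        mul_one, (w'.symm.mul_left c3).mul_pow, c2.mul_pow]
      simp only [conj_pow, nn, mul_one, mul_inv_cancel]
    rwa [show 6 = 4 + 2 from rfl, pow_add, w4, one_mul] at w6
  have e : b₀ * (a * (b₀ * q) * a) * q = b₀ * q := calc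
    _ = (b₀ * a * b₀) * (q * a * q) := by group
    _ = a * (b₀ * (a * a) * q) * a := by rw [← star_braid ha h0 t0, ← star_braid ha hq aq]; group
    _ = _ := by rw [ha, mul_one, key.eq, mul_assoc, ha, mul_one]
  rw [key.eq, mul_assoc _ a, ha, mul_one, mul_left_inj, mul_eq_left] at e
  rw [eq_inv_of_mul_eq_one_left e, inv_eq_of_mul_eq_one_right hq]

end Cfsg.Agent.O3R
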